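import Cfsg.Agent.H14.KPOrb

/-! Commuting pairs in cosets of permutation groups: k(G) ≤ √3^(n-1). -/

set_option autoImplicit false

namespace Cfsg.Agent.H14.KP

open Classical Finset

variable {Ω : Type*} [Fintype Ω]

noncomputable def cos (y : Equiv.Perm Ω) (M : Subgroup (Equiv.Perm Ω)) : Finset (Equiv.Perm Ω) :=
  univ.filter (fun g => y⁻¹ * g ∈ M)

noncomputable def c (H : Subgroup (Equiv.Perm Ω)) : ℕ := (cos 1 H).card

def St (H : Subgroup (Equiv.Perm Ω)) (a : Ω) : Subgroup (Equiv.Perm Ω) :=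
  H ⊓ MulAction.stabilizer (Equiv.Perm Ω) a

def Z (H : Subgroup (Equiv.Perm Ω)) (g : Equiv.Perm Ω) : Subgroup (Equiv.Perm Ω) :=
  H ⊓ Subgroup.centralizer {g}

noncomputable def cp (H : Subgroup (Equiv.Perm Ω)) (Y : Finset (Equiv.Perm Ω)) : ℕ :=
  ∑ g ∈ Y, c (Z H g)

variable {H K M : Subgroup (Equiv.Perm Ω)}

theorem mem_cos {y g : Equiv.Perm Ω} : g ∈ cos y H ↔ y⁻¹ * g ∈ H := by simp [cos]
theorem mem_cos1 {g : Equiv.Perm Ω} : g ∈ cos 1 H ↔ g ∈ H := by simp [cos]
omit [Fintype Ω] in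
theorem mem_St {g : Equiv.Perm Ω} {a : Ω} : g ∈ St H a ↔ g ∈ H ∧ g a = a := by
  simp [St]
omit [Fintype Ω] in
theorem mem_Z {g h : Equiv.Perm Ω} : h ∈ Z H g ↔ h ∈ H ∧ g * h = h * g := by
  simp [Z, Subgroup.mem_centralizer_iff]

theorem c_eq : c H = Nat.card H := by
  unfold c
  rw [← Nat.card_eq_finsetCard]
  exact Nat.card_congr (Equiv.subtypeEquivRight fun g => mem_cos1)

theorem c_pos : 0 < c H := card_pos.2 ⟨1, mem_cos1.2 H.one_mem⟩

theorem card_cos (y : Equiv.Perm Ω) : (cos y H).card = c H := by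
  unfold c
  apply card_bij (fun g _ => y⁻¹ * g)
  · intro g hg; exact mem_cos1.2 (mem_cos.1 hg)
  · intro a _ d _ h; exact mul_left_cancel h
  · intro g hg; exact ⟨y * g, mem_cos.2 (by simpa using mem_cos1.1 hg), by simp⟩

theorem c_lt (h : K ≤ H) {g : Equiv.Perm Ω} (hg : g ∈ H) (hg' : g ∉ K) : c K < c H := by
  apply card_lt_card
  exact ⟨fun x hx => mem_cos1.2 (h (mem_cos1.1 hx)), fun hs => hg' (mem_cos1.1 (hs (mem_cos1.2 hg)))⟩

theorem fib {y y' : Equiv.Perm Ω} {a : Ω} (hy' : y⁻¹ * y' ∈ M) :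
    (cos y M).filter (fun g => g a = y' a) = cos y' (St M a) := by
  ext g
  rw [mem_filter, mem_cos, mem_cos, mem_St]
  constructor
  · rintro ⟨h1, h2⟩
    refine ⟨?_, by simp [h2]⟩
    have := M.mul_mem (M.inv_mem hy') h1
    simpa [mul_assoc] using this
  · rintro ⟨h1, h2⟩
    refine ⟨?_, ?_⟩
    · have := M.mul_mem hy' h1
      simpa [mul_assoc] using this
    · have := congrArg y' h2
      simpa using this

theorem orbstab (a : Ω) : c H = o H a * c (St H a) := by
  unfold o
  rw [c, card_eq_sum_card_fiberwise (f := fun g => g a) (t := orb H a)]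
  · rw [sum_congr rfl (g := fun _ => c (St H a)), sum_const, smul_eq_mul]
    intro z hz
    obtain ⟨h, hh, rfl⟩ := mem_orb.1 hz
    have := fib (M := H) (y := 1) (y' := h) (a := a) (by simpa using hh)
    rw [← card_cos h, ← this]
  · intro g hg
    exact mem_orb.2 ⟨g, mem_cos1.1 hg, rfl⟩

theorem sum_orb (a : Ω) : ∑ z ∈ orb H a, c (St H z) = c H := by
  have hp := o_pos (H := H) a
  apply Nat.eq_of_mul_eq_mul_left hp
  rw [mul_sum, sum_congr rfl (g := fun _ => c H), sum_const, smul_eq_mul]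
  · rfl
  · intro z hz
    rw [← o_eq hz, ← orbstab]

theorem cZ (g : Equiv.Perm Ω) :
    c (Z H g) = ∑ h ∈ cos 1 H, if g * h = h * g then 1 else 0 := by
  rw [← card_filter]
  unfold c
  congr 1
  ext h
  rw [mem_filter, mem_cos1, mem_cos1, mem_Z]

theorem cp_twist (y : Equiv.Perm Ω) : cp M (cos y M) ≤ cp M (cos 1 M) := by
  unfold cp
  simp only [cZ]
  rw [sum_comm, sum_comm (s := cos 1 M) (t := cos 1 M)]
  apply sum_le_sum
  intro h _
  rw [← card_filter, ← card_filter]
  rcases ((cos y M).filter (fun g => g * h = h * g)).eq_empty_or_nonempty with he | ⟨g0, hg0⟩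
  · rw [he]; simp
  · rw [mem_filter, mem_cos] at hg0
    apply card_le_card_of_injOn (fun g => g0⁻¹ * g)
    · intro g hg
      rw [mem_coe, mem_filter, mem_cos] at hg
      rw [mem_coe, mem_filter, mem_cos1]
      constructor
      · have := M.mul_mem (M.inv_mem hg0.1) hg.1
        simpa [mul_assoc] using this
      · have h1 : Commute g h := hg.2
        have h2 : Commute g0 h := hg0.2
        exact (h2.inv_left.mul_left h1)
    · intro a _ d _ h; exact mul_left_cancel h

theorem c_idx (hK : K ≤ M) (g : Equiv.Perm Ω) : c (Z M g) * c K ≤ c M * c (Z K g) := by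
  simp only [c_eq]
  have h1 : ∀ A B : Subgroup (Equiv.Perm Ω), Nat.card (A ⊓ B : Subgroup _) * A.relIndex B =
      Nat.card B := by
    intro A B
    rw [← Subgroup.inf_relIndex_right, Subgroup.relIndex,
      ← Subgroup.card_mul_index ((A ⊓ B).subgroupOf B),
      Nat.card_congr (Subgroup.subgroupOfEquivOfLe (inf_le_right : A ⊓ B ≤ B)).toEquiv]
  have h2 := h1 K M
  rw [inf_eq_left.2 hK] at h2
  have h3 := h1 K (Z M g)
  have h4 : K ⊓ Z M g = Z K g := by
    unfold Z; rw [← inf_assoc, inf_eq_left.2 hK]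
  rw [h4] at h3
  have h5 : K.relIndex (Z M g) ≤ K.relIndex M :=
    Subgroup.relIndex_le_of_le_right inf_le_left (by
      intro h0; rw [h0] at h2; have := Nat.card_pos (α := M); omega)
  rw [← h2, ← h3]
  calc _ = Nat.card (Z K g) * Nat.card K * K.relIndex (Z M g) := by ring
    _ ≤ Nat.card (Z K g) * Nat.card K * K.relIndex M := Nat.mul_le_mul_left _ h5
    _ = _ := by ring

def ClB (M : Subgroup (Equiv.Perm Ω)) : Prop :=
  ∀ (a : Ω) (y : Equiv.Perm Ω), St M a ≤ cj y M →
    (cp (St M a) (cos y M) : ℝ) ≤ c (St M a) * (r (o M a) * (s ^ Fintype.card Ω * W M univ))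

def ClA (M : Subgroup (Equiv.Perm Ω)) : Prop :=
  (cp M (cos 1 M) : ℝ) ≤ c M * (s ^ Fintype.card Ω * W M univ)

theorem step {a : Ω} {y : Equiv.Perm Ω} (hy : St M a ≤ cj y M) (hB : ClB (St M a))
    (C : Finset Ω) :
    (cp (St M a) ((cos y M).filter (fun g => g a ∈ C)) : ℝ) ≤
      c (St M a) * (s ^ Fintype.card Ω * (W (St M a) univ * S (St M a) C)) := by
  set L := St M a with hL
  unfold cp
  rw [← sum_fiberwise_of_maps_to (s := (cos y M).filter (fun g => g a ∈ C))
    (g := fun g : Equiv.Perm Ω => g a) (t := C) (fun g hg => (mem_filter.1 hg).2)]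
  push_cast
  unfold S
  rw [mul_sum, mul_sum, mul_sum]
  apply sum_le_sum
  intro z hz
  have hs := s_pos
  have hW := W_pos (H := L) univ
  have hr := one_le_r (o L z)
  have ho : (0 : ℝ) < o L z := by have := o_pos (H := L) z; positivity
  rcases (((cos y M).filter (fun g => g a ∈ C)).filter (fun g => g a = z)).eq_empty_or_nonempty
    with he | ⟨y', hy'⟩
  · rw [he, sum_empty]; positivity
  · simp only [mem_filter, mem_cos] at hy'
    obtain ⟨⟨h1, -⟩, rfl⟩ := hy'
    have e1 : ((cos y M).filter (fun g => g a ∈ C)).filter (fun g => g a = y' a) = cos y' L := by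
      rw [hL, ← fib h1, filter_filter]
      apply filter_congr
      intro g _
      exact ⟨fun h => h.2, fun h => ⟨h ▸ hz, h⟩⟩
    rw [e1]
    have e2 : ∀ g ∈ cos y' L, c (Z L g) = c (Z (St L (y' a)) g) := by
      intro g hg
      rw [hL, ← fib h1, mem_filter] at hg
      congr 1
      ext h
      rw [mem_Z, mem_Z, mem_St (H := L)]
      refine ⟨fun hh => ⟨⟨hh.1, ?_⟩, hh.2⟩, fun hh => ⟨hh.1.1, hh.2⟩⟩
      have h3 := congrArg (fun k : Equiv.Perm Ω => k a) hh.2
      simp only [Equiv.Perm.coe_mul, Function.comp] at h3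
      rw [(mem_St.1 hh.1).2, hg.2] at h3
      exact h3.symm
    rw [sum_congr rfl (fun g hg => by rw [e2 g hg])]
    have h4 : St L (y' a) ≤ cj y' L := by
      intro h hh
      rw [mem_St] at hh
      rw [mem_cj, hL, mem_St]
      constructor
      · have h5 := mem_cj.1 (hy hh.1)
        have := M.mul_mem (M.mul_mem (M.inv_mem h1) h5) h1
        simpa [mul_assoc] using this
      · simp [hh.2]
    have h6 := hB (y' a) y' h4
    unfold cp at h6
    push_cast at h6
    refine h6.trans (le_of_eq ?_)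
    rw [orbstab (H := L) (y' a)]
    push_cast
    field_simp

theorem clB_of (hA : ClA M) (ih : ∀ L : Subgroup (Equiv.Perm Ω), c L < c M → ClB L) : ClB M := by
  intro a y hy
  by_cases ha : ∀ h ∈ M, h a = a
  · have e : St M a = M := le_antisymm inf_le_left fun h hh => mem_St.2 ⟨hh, ha h hh⟩
    have e2 : o M a = 1 := by unfold o; rw [orb_fix ha, card_singleton]
    rw [e, e2, r_one, one_mul]
    exact le_trans (by exact_mod_cast cp_twist y) hA
  · have ha' := ha
    push Not at ha'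
    obtain ⟨g, hg, hga⟩ := ha'
    have hlt : c (St M a) < c M := c_lt inf_le_left hg fun h => hga (mem_St.1 h).2
    have h1 := step hy (ih _ hlt) (orb (cj y M) (y a))
    rw [filter_true_of_mem] at h1
    · refine h1.trans (mul_le_mul_of_nonneg_left ?_ (Nat.cast_nonneg _))
      have h2 := ineqB (L := St M a) y inf_le_left hy (fun h hh => (mem_St.1 hh).2) ha
      have : 0 < s ^ Fintype.card Ω := pow_pos s_pos _
      calc _ ≤ s ^ Fintype.card Ω * (r (o M a) * W M univ) := mul_le_mul_of_nonneg_left h2 this.le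
        _ = _ := by ring
    · intro k hk
      exact (mem_orb_cj y a _).2 ⟨_, mem_cos.1 hk, by simp⟩

/-- pointwise stabiliser of a finite set -/
def Ker (M : Subgroup (Equiv.Perm Ω)) (A : Finset Ω) : Subgroup (Equiv.Perm Ω) where
  carrier := {g | g ∈ M ∧ ∀ x ∈ A, g x = x}
  one_mem' := ⟨M.one_mem, fun _ _ => rfl⟩
  mul_mem' := by
    rintro a d ⟨h1, h2⟩ ⟨h3, h4⟩
    exact ⟨M.mul_mem h1 h3, fun x hx => by simp [h4 x hx, h2 x hx]⟩
  inv_mem' := by
    rintro a ⟨h1, h2⟩
    exact ⟨M.inv_mem h1, fun x hx => by rw [Equiv.Perm.inv_eq_iff_eq, h2 x hx]⟩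

theorem moved {A : Finset Ω} (hA : Inv M A) {g : Equiv.Perm Ω} {x : Ω} (hx : x ∈ A)
    (hg : g x ≠ x) : c (Z M g) ≤ ∑ z ∈ A, if g z ≠ z then c (Z (St M z) g) else 0 := by
  rw [← sum_filter, ← sum_orb (H := Z M g) x]
  have e : ∀ z, St (Z M g) z = Z (St M z) g := fun z => by
    unfold St Z; rw [inf_right_comm]
  simp only [e]
  apply sum_le_sum_of_subset
  intro z hz
  obtain ⟨h, hh, rfl⟩ := mem_orb.1 hz
  rw [mem_Z] at hh
  refine mem_filter.2 ⟨hA h hh.1 x hx, fun h2 => hg ?_⟩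
  have h3 := congrArg (fun k : Equiv.Perm Ω => k x) hh.2
  simp only [Equiv.Perm.coe_mul, Function.comp] at h3
  rw [h2] at h3
  exact (h.injective h3).symm

theorem clA_of (ihA : ∀ L : Subgroup (Equiv.Perm Ω), c L < c M → ClA L)
    (ih : ∀ L : Subgroup (Equiv.Perm Ω), c L < c M → ClB L) : ClA M := by
  have hs : 0 < s ^ Fintype.card Ω := pow_pos s_pos _
  by_cases ha : ∀ a, ∀ h ∈ M, h a = a
  · have e : cos 1 M = {1} := by
      ext g
      rw [mem_cos1, mem_singleton]
      exact ⟨fun hg => Equiv.ext fun x => ha x g hg, fun h => h ▸ M.one_mem⟩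
    have e2 : Z M 1 = M := by ext h; simp [mem_Z]
    unfold ClA cp
    rw [e, sum_singleton, e2, W_allfix (fun z _ => ha z), card_univ, ← mul_pow, su]
    simp
  push Not at ha
  obtain ⟨a, g, hg, hga⟩ := ha
  set A := orb M a with hA
  have hAi : Inv M A := orb_inv a
  have hsub : A ⊆ univ := subset_univ _
  have hcard : 2 ≤ A.card := by
    apply one_lt_card.2
    exact ⟨a, self_mem a, g a, mem_orb.2 ⟨g, hg, rfl⟩, hga.symm⟩
  set K := Ker M A with hK
  have hKM : K ≤ M := fun h hh => hh.1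
  have hKlt : c K < c M := c_lt hKM hg fun h => hga (h.2 a (self_mem a))
  have p0 := W_pos (H := M) (univ \ A)
  -- the kernel part
  have h1 : (∑ g ∈ cos 1 K, (c (Z M g) : ℝ)) ≤
      c M * (s ^ Fintype.card Ω * (W M (univ \ A) * u ^ A.card)) := by
    have hk : (0 : ℝ) < c K := by exact_mod_cast c_pos
    have h2 := ihA K hKlt
    unfold ClA cp at h2
    push_cast at h2
    have h3 : W K univ ≤ W M (univ \ A) * u ^ A.card := by
      rw [W_split hsub, W_allfix (K := K) (C := A) (fun z hz h hh => hh.2 z hz)]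
      exact mul_le_mul_of_nonneg_right (W_mono hKM _ _ rfl (inv_univ.sdiff hAi))
        (pow_pos u_pos _).le
    refine le_of_mul_le_mul_right ?_ hk
    rw [sum_mul]
    calc _ ≤ ∑ g ∈ cos 1 K, (c M : ℝ) * c (Z K g) :=
          sum_le_sum fun g _ => by exact_mod_cast c_idx hKM g
      _ = c M * ∑ g ∈ cos 1 K, (c (Z K g) : ℝ) := by rw [mul_sum]
      _ ≤ c M * (c K * (s ^ Fintype.card Ω * (W M (univ \ A) * u ^ A.card))) := by
          apply mul_le_mul_of_nonneg_left (h2.trans _) (Nat.cast_nonneg _)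
          exact mul_le_mul_of_nonneg_left (mul_le_mul_of_nonneg_left h3 hs.le) hk.le
      _ = _ := by ring
  -- the rest
  have h4 : ∀ z ∈ A, (∑ g ∈ cos 1 M, if g z ≠ z then (c (Z (St M z) g) : ℝ) else 0) ≤
      c (St M z) * (s ^ Fintype.card Ω * (W M (univ \ A) * (u * b (A.card - 1)))) := by
    intro z hz
    have hnz : ∃ k ∈ M, k z ≠ z := by
      by_contra hcon
      push Not at hcon
      have := orb_eq hz
      rw [orb_fix hcon] at this
      rw [hA, ← this] at hcard
      simp at hcard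
    obtain ⟨k, hk, hkz⟩ := hnz
    have hlt : c (St M z) < c M := c_lt inf_le_left hk fun h => hkz (mem_St.1 h).2
    have h5 := step (M := M) (a := z) (y := 1) (fun h hh => by simpa [mem_cj] using hh.1)
      (ih _ hlt) (A \ {z})
    unfold cp at h5
    push_cast at h5
    rw [← sum_filter, filter_congr (q := fun g => g z ∈ A \ {z})]
    · refine h5.trans (mul_le_mul_of_nonneg_left (mul_le_mul_of_nonneg_left ?_ hs.le)
        (Nat.cast_nonneg _))
      have hfz : ∀ h ∈ St M z, h z = z := fun h hh => (mem_St.1 hh).2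
      have hs1 : ({z} : Finset Ω) ⊆ A := singleton_subset_iff.2 hz
      have h6 := WS ((hAi.mono (K := St M z) inf_le_left).sdiff (inv_fix hfz))
      rw [card_sdiff_of_subset hs1, card_singleton] at h6
      rw [W_split hsub, W_split hs1, W_fix hfz]
      have h7 := W_mono (K := St M z) (H := M) inf_le_left _ _ rfl (inv_univ.sdiff hAi)
      have p1 := W_pos (H := St M z) (A \ {z})
      have p2 := S_nonneg (H := St M z) (A \ {z})
      have p3 := u_pos
      calc _ = W (St M z) (univ \ A) * (u * (W (St M z) (A \ {z}) * S (St M z) (A \ {z}))) := by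
            ring
        _ ≤ _ := mul_le_mul h7 (mul_le_mul_of_nonneg_left h6 p3.le) (by positivity) p0.le
    · intro g hg
      rw [mem_sdiff, mem_singleton]
      exact ⟨fun h => ⟨hAi g (mem_cos1.1 hg) z hz, h⟩, fun h => h.2⟩
  have h8 : (∑ g ∈ cos 1 M \ cos 1 K, (c (Z M g) : ℝ)) ≤
      c M * (s ^ Fintype.card Ω * (W M (univ \ A) * (u * b (A.card - 1)))) := by
    calc _ ≤ ∑ g ∈ cos 1 M \ cos 1 K, ∑ z ∈ A,
          (if g z ≠ z then (c (Z (St M z) g) : ℝ) else 0) := by
          apply sum_le_sum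
          intro g hg
          rw [mem_sdiff, mem_cos1, mem_cos1] at hg
          have : ∃ x ∈ A, g x ≠ x := by
            by_contra hcon
            push Not at hcon
            exact hg.2 ⟨hg.1, hcon⟩
          obtain ⟨x, hx, hgx⟩ := this
          exact_mod_cast moved hAi hx hgx
      _ ≤ ∑ g ∈ cos 1 M, ∑ z ∈ A, (if g z ≠ z then (c (Z (St M z) g) : ℝ) else 0) := by
          apply sum_le_sum_of_subset_of_nonneg sdiff_subset
          intro g _ _
          exact sum_nonneg fun z _ => by split_ifs <;> positivity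
      _ = ∑ z ∈ A, ∑ g ∈ cos 1 M, (if g z ≠ z then (c (Z (St M z) g) : ℝ) else 0) := sum_comm
      _ ≤ ∑ z ∈ A, c (St M z) *
          (s ^ Fintype.card Ω * (W M (univ \ A) * (u * b (A.card - 1)))) := sum_le_sum h4
      _ = _ := by
          rw [← sum_mul, ← sum_orb (H := M) a]; push_cast; rfl
  unfold ClA cp
  push_cast
  have hsub2 : cos 1 K ⊆ cos 1 M := fun g hg => mem_cos1.2 (hKM (mem_cos1.1 hg))
  rw [← sum_sdiff hsub2, W_split hsub, hA, W_orb]
  have h9 := ineqA A.card hcard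
  calc _ ≤ _ := add_le_add h8 h1
    _ = c M * (s ^ Fintype.card Ω * (W M (univ \ A) * (u ^ A.card + u * b (A.card - 1)))) := by
        ring
    _ ≤ _ := mul_le_mul_of_nonneg_left (mul_le_mul_of_nonneg_left
        (mul_le_mul_of_nonneg_left h9 p0.le) hs.le) (Nat.cast_nonneg _)

theorem clAB : ∀ (n : ℕ) (M : Subgroup (Equiv.Perm Ω)), c M = n → ClA M ∧ ClB M := by
  intro n
  induction n using Nat.strong_induction_on with
  | _ n ih =>
    intro M hM
    subst hM
    have hA : ClA M := clA_of (fun L hL => (ih _ hL L rfl).1) (fun L hL => (ih _ hL L rfl).2)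
    exact ⟨hA, clB_of hA (fun L hL => (ih _ hL L rfl).2)⟩

theorem cp_eq : cp M (cos 1 M) = Nat.card (ConjClasses M) * c M := by
  rw [c_eq, ← card_comm_eq_card_conjClasses_mul_card]
  unfold cp
  simp only [cZ]
  rw [← sum_product', ← card_filter, ← Nat.card_eq_finsetCard]
  refine Nat.card_congr ⟨fun p => ⟨(⟨p.1.1, ?_⟩, ⟨p.1.2, ?_⟩), ?_⟩,
    fun q => ⟨(q.1.1.1, q.1.2.1), ?_⟩, fun p => rfl, fun q => rfl⟩
  · exact mem_cos1.1 (mem_product.1 (mem_filter.1 p.2).1).1
  · exact mem_cos1.1 (mem_product.1 (mem_filter.1 p.2).1).2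
  · exact Subtype.ext (mem_filter.1 p.2).2
  · exact mem_filter.2 ⟨mem_product.2 ⟨mem_cos1.2 q.1.1.2, mem_cos1.2 q.1.2.2⟩,
      congrArg Subtype.val q.2⟩

/-- `k(M) ≤ ∏ f(|orbit|)` -/
theorem k_le (M : Subgroup (Equiv.Perm Ω)) :
    (Nat.card (ConjClasses M) : ℝ) ≤ s ^ Fintype.card Ω * W M univ := by
  have h := (clAB _ M rfl).1
  unfold ClA at h
  rw [cp_eq] at h
  push_cast at h
  have hk : (0 : ℝ) < c M := by exact_mod_cast c_pos
  rw [mul_comm] at h
  exact le_of_mul_le_mul_left h hk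

theorem k_sq_le (M : Subgroup (Equiv.Perm Ω)) (hn : 3 ≤ Fintype.card Ω) :
    Nat.card (ConjClasses M) ^ 2 ≤ 3 ^ (Fintype.card Ω - 1) := by
  have h := k_le M
  have hne : (univ : Finset Ω).Nonempty := card_pos.1 (by rw [card_univ]; omega)
  have h2 := W_le (H := M) inv_univ hne
  rw [card_univ, w, if_neg (by omega)] at h2
  obtain ⟨m, hm⟩ : ∃ m, Fintype.card Ω = m + 1 := ⟨Fintype.card Ω - 1, by omega⟩
  rw [hm] at h ⊢
  have h3 : (Nat.card (ConjClasses M) : ℝ) ≤ s ^ m := by
    refine h.trans ((mul_le_mul_of_nonneg_left h2 (pow_pos s_pos _).le).trans (le_of_eq ?_))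
    rw [pow_succ, mul_assoc, su, mul_one]
  have h4 : ((Nat.card (ConjClasses M) : ℝ)) ^ 2 ≤ (s ^ m) ^ 2 :=
    pow_le_pow_left₀ (Nat.cast_nonneg _) h3 2
  rw [← pow_mul, mul_comm m 2, pow_mul, pow_two s, s_sq] at h4
  rw [Nat.add_sub_cancel]
  exact_mod_cast h4

theorem k_le_two_pow (M : Subgroup (Equiv.Perm Ω)) :
    Nat.card (ConjClasses M) ≤ 2 ^ (Fintype.card Ω - 1) := by
  rcases Nat.lt_or_ge (Fintype.card Ω) 3 with hn | hn
  · have h1 : Nat.card (ConjClasses M) ≤ Nat.card M :=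
      Nat.card_le_card_of_surjective _ ConjClasses.mk_surjective
    have h2 : Nat.card M ≤ Nat.card (Equiv.Perm Ω) := Subgroup.card_le_card_group M
    rw [Nat.card_eq_fintype_card (α := Equiv.Perm Ω), Fintype.card_perm] at h2
    refine (h1.trans h2).trans ?_
    generalize Fintype.card Ω = n at hn
    interval_cases n <;> decide
  · have h := k_sq_le M hn
    have h2 : 3 ^ (Fintype.card Ω - 1) ≤ (2 ^ (Fintype.card Ω - 1)) ^ 2 := by
      rw [← pow_mul, mul_comm, pow_mul]
      exact Nat.pow_le_pow_left (by norm_num) _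
    exact (Nat.pow_le_pow_iff_left (by norm_num)).1 (h.trans h2)

end Cfsg.Agent.H14.KP
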