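import Mathlib

/-! Numerics for the class number bound of permutation groups. -/

set_option autoImplicit false

namespace Cfsg.Agent.H14.KP

noncomputable def s : ℝ := Real.sqrt 3
noncomputable def u : ℝ := s / 3
noncomputable def w (x : ℕ) : ℝ := if x = 2 then 2 / 3 else u
noncomputable def r (x : ℕ) : ℝ := if x ≤ 2 then 1 else 137 / 100
noncomputable def b (m : ℕ) : ℝ :=
  if m = 0 then 0 else if m = 1 then u else if m = 2 then 2 / 3 else if m = 3 then 4 / 5
  else if m = 4 then 8 / 9 else 11 / 12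

theorem s_sq : s * s = 3 := Real.mul_self_sqrt (by norm_num)
theorem s_pos : 0 < s := Real.sqrt_pos.2 (by norm_num)
theorem u_sq : u * u = 1 / 3 := by unfold u; nlinarith [s_sq]
theorem su : s * u = 1 := by unfold u; nlinarith [s_sq]
theorem u_pos : 0 < u := by unfold u; have := s_pos; positivity
theorem u_lt : u < 5774 / 10000 := by nlinarith [u_sq, u_pos]
theorem u_gt : 577 / 1000 < u := by nlinarith [u_sq, u_pos]

theorem w_pos (x : ℕ) : 0 < w x := by
  unfold w; split_ifs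
  · norm_num
  · exact u_pos
theorem w_le (x : ℕ) : w x ≤ 2 / 3 := by
  unfold w; split_ifs
  · norm_num
  · linarith [u_lt]
theorem u_le_w (x : ℕ) : u ≤ w x := by
  unfold w; split_ifs
  · linarith [u_lt]
  · exact le_rfl
theorem one_le_r (x : ℕ) : 1 ≤ r x := by
  unfold r; split_ifs <;> norm_num
theorem w_one : w 1 = u := by simp [w]
theorem r_one : r 1 = 1 := by simp [r]

/-- the three types of parts -/
theorem typ (x : ℕ) (hx : 1 ≤ x) : (x = 1 ∧ w x = u ∧ r x = 1) ∨ (x = 2 ∧ w x = 2 / 3 ∧ r x = 1) ∨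
    (3 ≤ x ∧ w x = u ∧ r x = 137 / 100) := by
  rcases Nat.lt_or_ge x 3 with h | h
  · have : x = 1 ∨ x = 2 := by omega
    rcases this with rfl | rfl
    · left; simp [w, r]
    · right; left; simp [w, r]
  · right; right
    refine ⟨h, ?_, ?_⟩
    · unfold w; rw [if_neg (by omega)]
    · unfold r; rw [if_neg (by omega)]

theorem noninc (x : ℕ) (hx : 1 ≤ x) (T : ℝ) (hT : 2 ≤ T) : w x * (T + r x) ≤ T := by
  have h1 := u_lt
  have h2 := u_gt
  rcases typ x hx with ⟨-, hw, hr⟩ | ⟨-, hw, hr⟩ | ⟨-, hw, hr⟩ <;> rw [hw, hr] <;> nlinarith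

theorem b_le (m : ℕ) : b m ≤ 11 / 12 := by
  have h1 := u_lt
  unfold b; split_ifs <;> linarith

theorem b_mono (m x : ℕ) : b m ≤ b (m + x) := by
  have h1 := u_lt
  have h2 := u_gt
  unfold b; split_ifs <;> first | omega | linarith

def P1 (W _S : ℝ) (m : ℕ) : Prop := (m = 0 ∧ W = 1) ∨ (1 ≤ m ∧ 0 ≤ W ∧ W ≤ w m)

theorem P1_step (W S : ℝ) (m x : ℕ) (hx : 1 ≤ x) (h : P1 W S m) :
    P1 (W * w x) (S + r x) (m + x) := by
  right
  have h1 := w_pos x
  rcases h with ⟨rfl, rfl⟩ | ⟨hm, h0, hW⟩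
  · exact ⟨by omega, by linarith, by simp⟩
  · refine ⟨by omega, by positivity, ?_⟩
    have := w_le m
    have := w_le x
    have := u_le_w (m + x)
    have := u_gt
    nlinarith

def P2 (W S : ℝ) (_m : ℕ) : Prop :=
  (S = 0 ∧ W = 1) ∨ (1 ≤ S ∧ 0 ≤ W ∧ W * (S + 1) ≤ 137 / 100)

theorem P2_step (W S : ℝ) (m x : ℕ) (hx : 1 ≤ x) (h : P2 W S m) :
    P2 (W * w x) (S + r x) (m + x) := by
  right
  have h1 := w_pos x
  have h2 := one_le_r x
  rcases h with ⟨rfl, rfl⟩ | ⟨hS, h0, hW⟩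
  · refine ⟨by linarith, by linarith, ?_⟩
    have h3 := u_lt
    rcases typ x hx with ⟨-, hw, hr⟩ | ⟨-, hw, hr⟩ | ⟨-, hw, hr⟩ <;> rw [hw, hr] <;> nlinarith
  · refine ⟨by linarith, by positivity, ?_⟩
    have := noninc x hx (S + 1) (by linarith)
    calc W * w x * (S + r x + 1) = W * (w x * (S + 1 + r x)) := by ring
      _ ≤ W * (S + 1) := mul_le_mul_of_nonneg_left this h0
      _ ≤ _ := hW

def P3 (W S : ℝ) (m : ℕ) : Prop :=
  (m = 0 ∧ W = 1 ∧ S = 0) ∨ (1 ≤ m ∧ W = w m ∧ S = r m) ∨ (2 ≤ S ∧ 0 ≤ W ∧ W * S ≤ b m)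

theorem b_two : b 2 = 2 / 3 := by simp [b]
theorem b_three : b 3 = 4 / 5 := by simp [b]
theorem b_four : b 4 = 8 / 9 := by simp [b]
theorem b_big (m : ℕ) (h : 5 ≤ m) : b m = 11 / 12 := by
  unfold b; rw [if_neg (by omega), if_neg (by omega), if_neg (by omega), if_neg (by omega),
    if_neg (by omega)]
theorem b_ge3 (m : ℕ) (h : 3 ≤ m) : 4 / 5 ≤ b m := by
  have := b_mono 3 (m - 3)
  rw [show 3 + (m - 3) = m by omega, b_three] at this
  exact this

theorem P3_step (W S : ℝ) (m x : ℕ) (hx : 1 ≤ x) (h : P3 W S m) :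
    P3 (W * w x) (S + r x) (m + x) := by
  have h1 := w_pos x
  have h2 := one_le_r x
  rcases h with ⟨rfl, rfl, rfl⟩ | ⟨hm, rfl, rfl⟩ | ⟨hS, h0, hW⟩
  · right; left
    exact ⟨by omega, by simp, by simp⟩
  · right; right
    have h3 := w_pos m
    have h4 := one_le_r m
    refine ⟨by linarith, by positivity, ?_⟩
    have h5 := u_lt
    have h6 := u_gt
    have h7 := u_sq
    rcases typ m hm with ⟨rfl, hw, hr⟩ | ⟨rfl, hw, hr⟩ | ⟨hm3, hw, hr⟩ <;>
    rcases typ x hx with ⟨rfl, hw', hr'⟩ | ⟨rfl, hw', hr'⟩ | ⟨hx3, hw', hr'⟩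
    · rw [hw, hr, show 1 + 1 = 2 from rfl, b_two]; nlinarith
    · rw [hw, hr, hw', hr', show 1 + 2 = 3 from rfl, b_three]; nlinarith
    · rw [hw, hr, hw', hr']; have := b_ge3 (1 + x) (by omega); nlinarith
    · rw [hw, hr, hw', hr', show 2 + 1 = 3 from rfl, b_three]; nlinarith
    · rw [hw, hr, show 2 + 2 = 4 from rfl, b_four]; norm_num
    · rw [hw, hr, hw', hr', b_big (2 + x) (by omega)]; nlinarith
    · rw [hw, hr, hw', hr']; have := b_ge3 (m + 1) (by omega); nlinarith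
    · rw [hw, hr, hw', hr', b_big (m + 2) (by omega)]; nlinarith
    · rw [hw, hr, hw', hr', b_big (m + x) (by omega)]; nlinarith
  · right; right
    refine ⟨by linarith, by positivity, ?_⟩
    have := noninc x hx S hS
    calc W * w x * (S + r x) = W * (w x * (S + r x)) := by ring
      _ ≤ W * S := mul_le_mul_of_nonneg_left this h0
      _ ≤ b m := hW
      _ ≤ _ := b_mono m x

theorem P3_out {W S : ℝ} {m : ℕ} (h : P3 W S m) : W * S ≤ b m := by
  rcases h with ⟨rfl, rfl, rfl⟩ | ⟨hm, rfl, rfl⟩ | ⟨-, -, hW⟩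
  · simp [b]
  · have h5 := u_lt
    rcases typ m hm with ⟨rfl, hw, hr⟩ | ⟨rfl, hw, hr⟩ | ⟨hm3, hw, hr⟩
    · rw [hw, hr]; simp [b]
    · rw [hw, hr, b_two]; norm_num
    · rw [hw, hr]; have := b_ge3 m hm3; nlinarith
  · exact hW

theorem ineqA (a : ℕ) (ha : 2 ≤ a) : u ^ a + u * b (a - 1) ≤ w a := by
  have h5 := u_lt
  have h6 := u_gt
  have h7 := u_sq
  have h8 := u_pos
  rcases Nat.lt_or_ge a 6 with h | h
  · have : a = 2 ∨ a = 3 ∨ a = 4 ∨ a = 5 := by omega
    rcases this with rfl | rfl | rfl | rfl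
    · simp only [w, b]; norm_num; nlinarith
    · simp only [w, b]; norm_num
      have : u ^ 3 = u / 3 := by rw [pow_succ, pow_two, h7]; ring
      nlinarith
    · simp only [w, b]; norm_num
      have : u ^ 4 = 1 / 9 := by rw [show u ^ 4 = (u * u) * (u * u) by ring, h7]; norm_num
      nlinarith
    · simp only [w, b]; norm_num
      have : u ^ 5 = u / 9 := by rw [show u ^ 5 = (u * u) * (u * u) * u by ring, h7]; ring
      nlinarith
  · have h1 : u ^ a ≤ u ^ 6 := pow_le_pow_of_le_one h8.le (by linarith) h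
    have h2 : u ^ 6 = 1 / 27 := by
      rw [show u ^ 6 = (u * u) * (u * u) * (u * u) by ring, h7]; norm_num
    have h3 := b_le (a - 1)
    have h4 := u_le_w a
    nlinarith

end Cfsg.Agent.H14.KP
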