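import Cfsg.Agent.H14.KPNum

/-! Orbit weights of subgroups of a finite symmetric group. -/

set_option autoImplicit false

namespace Cfsg.Agent.H14.KP

open Classical Finset

variable {Ω : Type*} [Fintype Ω]

noncomputable def orb (H : Subgroup (Equiv.Perm Ω)) (x : Ω) : Finset Ω :=
  univ.filter (fun z => ∃ h ∈ H, h x = z)

noncomputable def o (H : Subgroup (Equiv.Perm Ω)) (x : Ω) : ℕ := (orb H x).card

noncomputable def W (H : Subgroup (Equiv.Perm Ω)) (C : Finset Ω) : ℝ :=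
  ∏ x ∈ C, w (o H x) ^ ((o H x : ℝ)⁻¹)

noncomputable def S (H : Subgroup (Equiv.Perm Ω)) (C : Finset Ω) : ℝ :=
  ∑ x ∈ C, r (o H x) / (o H x : ℝ)

def Inv (H : Subgroup (Equiv.Perm Ω)) (C : Finset Ω) : Prop := ∀ h ∈ H, ∀ x ∈ C, h x ∈ C

variable {H K : Subgroup (Equiv.Perm Ω)}

theorem mem_orb {x z : Ω} : z ∈ orb H x ↔ ∃ h ∈ H, h x = z := by simp [orb]

theorem self_mem (x : Ω) : x ∈ orb H x := mem_orb.2 ⟨1, H.one_mem, rfl⟩

theorem orb_inv (x : Ω) : Inv H (orb H x) := by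
  intro h hh z hz
  obtain ⟨k, hk, rfl⟩ := mem_orb.1 hz
  exact mem_orb.2 ⟨h * k, H.mul_mem hh hk, rfl⟩

theorem orb_sub {C : Finset Ω} (hC : Inv H C) {x : Ω} (hx : x ∈ C) : orb H x ⊆ C := by
  intro z hz
  obtain ⟨k, hk, rfl⟩ := mem_orb.1 hz
  exact hC k hk x hx

theorem orb_eq {x z : Ω} (hz : z ∈ orb H x) : orb H z = orb H x := by
  apply Subset.antisymm (orb_sub (orb_inv x) hz)
  apply orb_sub (orb_inv z)
  obtain ⟨k, hk, rfl⟩ := mem_orb.1 hz
  exact mem_orb.2 ⟨k⁻¹, H.inv_mem hk, by simp⟩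

theorem o_pos (x : Ω) : 1 ≤ o H x := card_pos.2 ⟨x, self_mem x⟩

theorem o_eq {x z : Ω} (hz : z ∈ orb H x) : o H z = o H x := by unfold o; rw [orb_eq hz]

theorem Inv.mono {C : Finset Ω} (hC : Inv H C) (hK : K ≤ H) : Inv K C :=
  fun h hh x hx => hC h (hK hh) x hx

theorem Inv.sdiff {C D : Finset Ω} (hC : Inv H C) (hD : Inv H D) : Inv H (C \ D) := by
  intro h hh x hx
  rw [mem_sdiff] at hx ⊢
  refine ⟨hC h hh x hx.1, fun h2 => hx.2 ?_⟩
  simpa using hD h⁻¹ (H.inv_mem hh) _ h2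

theorem inv_univ : Inv H univ := fun _ _ _ _ => mem_univ _

theorem W_pos (C : Finset Ω) : 0 < W H C :=
  prod_pos fun x _ => Real.rpow_pos_of_pos (w_pos _) _

theorem S_nonneg (C : Finset Ω) : 0 ≤ S H C :=
  sum_nonneg fun x _ => div_nonneg (by linarith [one_le_r (o H x)]) (Nat.cast_nonneg _)

theorem W_split {C D : Finset Ω} (h : D ⊆ C) : W H C = W H (C \ D) * W H D :=
  (prod_sdiff h).symm

theorem S_split {C D : Finset Ω} (h : D ⊆ C) : S H C = S H (C \ D) + S H D :=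
  (sum_sdiff h).symm

theorem W_orb (x : Ω) : W H (orb H x) = w (o H x) := by
  unfold W
  rw [prod_congr rfl (fun z hz => by rw [o_eq hz]), prod_const]
  exact Real.rpow_inv_natCast_pow (w_pos _).le (by have := o_pos (H := H) x; unfold o at *; omega)

theorem S_orb (x : Ω) : S H (orb H x) = r (o H x) := by
  unfold S
  rw [sum_congr rfl (fun z hz => by rw [o_eq hz]), sum_const, nsmul_eq_mul]
  have : (o H x : ℝ) ≠ 0 := by have := o_pos (H := H) x; positivity
  change (o H x : ℝ) * _ = _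
  field_simp

theorem ind (P : ℝ → ℝ → ℕ → Prop) (h0 : P 1 0 0)
    (hs : ∀ W S m x, 1 ≤ x → P W S m → P (W * w x) (S + r x) (m + x)) :
    ∀ (n : ℕ) (C : Finset Ω), C.card = n → Inv H C → P (W H C) (S H C) C.card := by
  intro n
  induction n using Nat.strong_induction_on with
  | _ n ih =>
    intro C hn hC
    rcases C.eq_empty_or_nonempty with rfl | ⟨x, hx⟩
    · simpa [W, S] using h0
    · have hsub := orb_sub hC hx
      have hc := card_sdiff_add_card_eq_card hsub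
      have hp := o_pos (H := H) x
      have := ih (C \ orb H x).card (by unfold o at hp; omega) _ rfl (hC.sdiff (orb_inv x))
      have h2 := hs _ _ _ (o H x) hp this
      rw [W_split hsub, S_split hsub, W_orb, S_orb, ← hc]
      exact h2

theorem W_le {C : Finset Ω} (hC : Inv H C) (hne : C.Nonempty) : W H C ≤ w C.card := by
  rcases ind P1 (Or.inl ⟨rfl, rfl⟩) P1_step _ C rfl hC with ⟨h, -⟩ | ⟨-, -, h⟩
  · have := card_pos.2 hne; omega
  · exact h

theorem WS1 {C : Finset Ω} (hC : Inv H C) : W H C * (S H C + 1) ≤ 137 / 100 := by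
  rcases ind P2 (Or.inl ⟨rfl, rfl⟩) P2_step _ C rfl hC with ⟨h, h'⟩ | ⟨-, -, h⟩
  · rw [h, h']; norm_num
  · exact h

theorem WS {C : Finset Ω} (hC : Inv H C) : W H C * S H C ≤ b C.card :=
  P3_out (ind P3 (Or.inl ⟨rfl, rfl, rfl⟩) P3_step _ C rfl hC)

theorem W_mono (hK : K ≤ H) : ∀ (n : ℕ) (C : Finset Ω), C.card = n → Inv H C →
    W K C ≤ W H C := by
  intro n
  induction n using Nat.strong_induction_on with
  | _ n ih =>
    intro C hn hC
    rcases C.eq_empty_or_nonempty with rfl | ⟨x, hx⟩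
    · simp [W]
    · have hsub := orb_sub hC hx
      have hc := card_sdiff_add_card_eq_card hsub
      have hp := o_pos (H := H) x
      have := ih (C \ orb H x).card (by unfold o at hp; omega) _ rfl (hC.sdiff (orb_inv x))
      rw [W_split (H := K) hsub, W_split (H := H) hsub, W_orb]
      exact mul_le_mul this (W_le ((orb_inv x).mono hK) ⟨x, self_mem x⟩) (W_pos _).le (W_pos _).le

theorem orb_fix {z : Ω} (hz : ∀ h ∈ K, h z = z) : orb K z = {z} := by
  ext v
  rw [mem_orb, mem_singleton]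
  constructor
  · rintro ⟨h, hh, rfl⟩; exact hz h hh
  · rintro rfl; exact ⟨1, K.one_mem, rfl⟩

theorem W_fix {z : Ω} (hz : ∀ h ∈ K, h z = z) : W K {z} = u := by
  rw [← orb_fix hz, W_orb]; unfold o; rw [orb_fix hz, card_singleton, w_one]

theorem S_fix {z : Ω} (hz : ∀ h ∈ K, h z = z) : S K {z} = 1 := by
  rw [← orb_fix hz, S_orb]; unfold o; rw [orb_fix hz, card_singleton, r_one]

theorem inv_fix {z : Ω} (hz : ∀ h ∈ K, h z = z) : Inv K {z} := by
  rw [← orb_fix hz]; exact orb_inv z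

theorem W_allfix {C : Finset Ω} (hz : ∀ z ∈ C, ∀ h ∈ K, h z = z) : W K C = u ^ C.card := by
  unfold W
  rw [prod_congr rfl (g := fun _ => u), prod_const]
  intro z hzC
  unfold o
  rw [orb_fix (hz z hzC), card_singleton, w_one]; simp

theorem W_gain (hK : K ≤ H) {C : Finset Ω} (hC : Inv H C) {z : Ω} (hzC : z ∈ C)
    (hz : ∀ h ∈ K, h z = z) (hnz : ¬ ∀ h ∈ H, h z = z) : W K C ≤ 2 / 3 * W H C := by
  have hsub := orb_sub hC hzC
  have h1 := W_mono hK _ _ rfl (hC.sdiff (orb_inv z))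
  have hs : ({z} : Finset Ω) ⊆ orb H z := singleton_subset_iff.2 (self_mem z)
  have hne : (orb H z \ {z}).Nonempty := by
    push Not at hnz
    obtain ⟨h, hh, hne⟩ := hnz
    exact ⟨h z, mem_sdiff.2 ⟨mem_orb.2 ⟨h, hh, rfl⟩, by simpa using hne⟩⟩
  have h2 := W_le (((orb_inv z).mono hK).sdiff (inv_fix hz)) hne
  have h3 : W K (orb H z) ≤ 2 / 3 * w (o H z) := by
    rw [W_split hs, W_fix hz]
    exact mul_le_mul (h2.trans (w_le _)) (u_le_w _) u_pos.le (by norm_num)
  rw [W_split (H := K) hsub, W_split (H := H) hsub, W_orb]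
  calc _ ≤ W H (C \ orb H z) * (2 / 3 * w (o H z)) :=
        mul_le_mul h1 h3 (W_pos _).le (W_pos _).le
    _ = _ := by ring

/-- the conjugate subgroup `y M y⁻¹` -/
def cj (y : Equiv.Perm Ω) (M : Subgroup (Equiv.Perm Ω)) : Subgroup (Equiv.Perm Ω) where
  carrier := {g | y⁻¹ * g * y ∈ M}
  one_mem' := by simp
  mul_mem' := by
    intro a c ha hc
    have := M.mul_mem ha hc
    simpa [mul_assoc] using this
  inv_mem' := by
    intro a ha
    have := M.inv_mem ha
    simpa [mul_assoc] using this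

omit [Fintype Ω] in
theorem mem_cj {y g : Equiv.Perm Ω} : g ∈ cj y H ↔ y⁻¹ * g * y ∈ H := Iff.rfl

theorem mem_orb_cj (y : Equiv.Perm Ω) (x z : Ω) :
    z ∈ orb (cj y H) (y x) ↔ ∃ h ∈ H, y (h x) = z := by
  rw [mem_orb]
  constructor
  · rintro ⟨g, hg, rfl⟩
    exact ⟨_, hg, by simp⟩
  · rintro ⟨h, hh, rfl⟩
    exact ⟨y * h * y⁻¹, by simpa [mem_cj, mul_assoc] using hh, by simp⟩

theorem o_cj (y : Equiv.Perm Ω) (x : Ω) : o (cj y H) (y x) = o H x := by
  unfold o
  rw [← card_image_of_injective (orb H x) y.injective]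
  congr 1
  ext z
  rw [mem_orb_cj, mem_image]
  constructor
  · rintro ⟨h, hh, rfl⟩; exact ⟨h x, mem_orb.2 ⟨h, hh, rfl⟩, rfl⟩
  · rintro ⟨v, hv, rfl⟩
    obtain ⟨h, hh, rfl⟩ := mem_orb.1 hv
    exact ⟨h, hh, rfl⟩

theorem W_cj (y : Equiv.Perm Ω) : W (cj y H) univ = W H univ := by
  unfold W
  rw [← Equiv.prod_comp y]
  simp only [o_cj]

theorem ex_fix {M L : Subgroup (Equiv.Perm Ω)} (y : Equiv.Perm Ω) (hL : L ≤ M) {a : Ω}
    (ha : ∀ h ∈ L, h a = a) (hna : ¬ ∀ h ∈ M, h a = a) :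
    ∃ z, (∀ h ∈ L, h z = z) ∧ ¬ ∀ h ∈ cj y M, h z = z := by
  by_contra hcon
  push Not at hcon
  let F : Subgroup (Equiv.Perm Ω) → Finset Ω := fun N => univ.filter (fun z => ∀ h ∈ N, h z = z)
  have mF : ∀ N z, z ∈ F N ↔ ∀ h ∈ N, h z = z := fun N z => by simp [F]
  have h1 : (F M).card < (F L).card := by
    apply card_lt_card
    refine ⟨fun z hz => (mF _ _).2 fun h hh => (mF _ _).1 hz h (hL hh), fun hs => hna ?_⟩
    exact (mF _ _).1 (hs ((mF _ _).2 ha))
  have h2 : (F L).card ≤ (F M).card := by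
    apply card_le_card_of_injOn (fun z => y⁻¹ z)
    · intro z hz
      have hz' := hcon z ((mF _ _).1 hz)
      refine (mF _ _).2 fun h hh => ?_
      have := hz' (y * h * y⁻¹) (by simpa [mem_cj, mul_assoc] using hh)
      simp only [Equiv.Perm.coe_mul, Function.comp] at this
      conv_rhs => rw [← this]
      simp
    · exact fun a _ c _ h => (y⁻¹).injective h
  omega

/-- inequality for the step of claim B -/
theorem ineqB {M L : Subgroup (Equiv.Perm Ω)} (y : Equiv.Perm Ω) (hL : L ≤ M)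
    (hy : L ≤ cj y M) {a : Ω} (ha : ∀ h ∈ L, h a = a) (hna : ¬ ∀ h ∈ M, h a = a) :
    W L univ * S L (orb (cj y M) (y a)) ≤ r (o M a) * W M univ := by
  set A := orb (cj y M) (y a) with hA
  have hAi : Inv (cj y M) A := orb_inv _
  have hcard : A.card = o M a := o_cj y a
  have hsub : A ⊆ univ := subset_univ _
  have hM : W M univ = W (cj y M) (univ \ A) * w (o M a) := by
    rw [← W_cj y, W_split hsub, hA, W_orb, o_cj]
  have hmono := W_mono hy _ _ rfl (inv_univ.sdiff hAi)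
  have hWS := WS (hAi.mono hy)
  have p1 := W_pos (H := L) A
  have p2 := S_nonneg (H := L) A
  have p3 := W_pos (H := L) (univ \ A)
  have p4 := W_pos (H := cj y M) (univ \ A)
  rw [hM, W_split hsub]
  have key : ∀ t : ℝ, W L A * S L A ≤ t → t ≤ r (o M a) * w (o M a) →
      W L (univ \ A) * W L A * S L A ≤ r (o M a) * (W (cj y M) (univ \ A) * w (o M a)) := by
    intro t h1 h2
    calc _ = W L (univ \ A) * (W L A * S L A) := by ring
      _ ≤ W (cj y M) (univ \ A) * (r (o M a) * w (o M a)) :=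
        mul_le_mul hmono (h1.trans h2) (by positivity) p4.le
      _ = _ := by ring
  rw [hcard] at hWS
  rcases typ (o M a) (o_pos a) with ⟨h1, hw, hr⟩ | ⟨h1, hw, hr⟩ | ⟨h1, hw, hr⟩
  · refine key _ hWS ?_
    rw [hw, hr, h1]; simp [b]
  · refine key _ hWS ?_
    rw [hw, hr, h1, b_two]; norm_num
  · obtain ⟨z, hz, hnz⟩ := ex_fix y hL ha hna
    by_cases hzA : z ∈ A
    · refine key _ ?_ le_rfl
      have hs : ({z} : Finset Ω) ⊆ A := singleton_subset_iff.2 hzA
      have := WS1 ((hAi.mono hy).sdiff (inv_fix hz))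
      rw [W_split hs, S_split hs, W_fix hz, S_fix hz, hw, hr]
      have := u_pos
      nlinarith
    · have hg := W_gain hy (inv_univ.sdiff hAi) (mem_sdiff.2 ⟨mem_univ z, hzA⟩) hz hnz
      have hb := b_le (o M a)
      rw [hw, hr]
      have := u_gt
      calc _ = W L (univ \ A) * (W L A * S L A) := by ring
        _ ≤ (2 / 3 * W (cj y M) (univ \ A)) * (11 / 12) :=
          mul_le_mul hg (hWS.trans hb) (by positivity) (by positivity)
        _ ≤ _ := by nlinarith

end Cfsg.Agent.H14.KP
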