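/-
Ree's inequality (the permutation case of Scott's lemma): if `x * y * z = 1` are permutations of `n` points with at
least `a`, `b`, `c` cycles and `⟨x, y⟩` has at most `t` orbits, then `a + b + c ≤ n + 2 t`.
-/
import Mathlib

set_option autoImplicit false

namespace Cfsg.Agent.H14

open Module

variable {Ω : Type*}

/-- `g` has at least `c` cycles (fixed points included) -/
def HasCycles (g : Equiv.Perm Ω) (c : ℕ) : Prop :=
  ∃ l : Ω → Fin c, Function.Surjective l ∧ ∀ i, l (g i) = l i

theorem HasCycles.conj {g : Equiv.Perm Ω} {c : ℕ} (h : HasCycles g c) (a : Equiv.Perm Ω) :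
    HasCycles (a * g * a⁻¹) c := by
  obtain ⟨l, h1, h2⟩ := h
  refine ⟨fun i => l (a⁻¹ i), h1.comp a⁻¹.surjective, fun i => ?_⟩
  simp [h2]

/-- the permutation module -/
noncomputable def permRep (g : Equiv.Perm Ω) : (Ω → ℚ) →ₗ[ℚ] (Ω → ℚ) := LinearMap.funLeft ℚ ℚ g.symm

theorem permRep_apply (g : Equiv.Perm Ω) (f : Ω → ℚ) (i : Ω) : permRep g f i = f (g.symm i) := rfl

theorem permRep_mul (g h : Equiv.Perm Ω) (f : Ω → ℚ) : permRep (g * h) f = permRep g (permRep h f) := rfl

theorem permRep_one (f : Ω → ℚ) : permRep 1 f = f := rfl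

theorem HasCycles.finrank_range [Fintype Ω] {g : Equiv.Perm Ω} {c : ℕ} (h : HasCycles g c) :
    finrank ℚ (LinearMap.range (LinearMap.id - permRep g)) + c ≤ Fintype.card Ω := by
  obtain ⟨l, h1, h2⟩ := h
  have h3 := LinearMap.finrank_range_add_finrank_ker (LinearMap.id - permRep g)
  rw [finrank_fintype_fun_eq_card] at h3
  have h4 : finrank ℚ (Fin c → ℚ) ≤ finrank ℚ (LinearMap.ker (LinearMap.id - permRep g)) := by
    refine LinearMap.finrank_le_finrank_of_injective
      (f := (LinearMap.funLeft ℚ ℚ l).codRestrict _ fun f => ?_) ?_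
    · rw [LinearMap.mem_ker]
      ext i
      have := h2 (g.symm i)
      simp only [Equiv.apply_symm_apply] at this
      simp [permRep_apply, LinearMap.funLeft_apply, this]
    · intro f f' e
      exact LinearMap.funLeft_injective_of_surjective ℚ ℚ l h1 (congrArg Subtype.val e)
  rw [finrank_fintype_fun_eq_card, Fintype.card_fin] at h4
  omega

/-- Ree's inequality -/
theorem ree [Fintype Ω] {x y z : Equiv.Perm Ω} (hxyz : x * y * z = 1) {a b c : ℕ} (ha : HasCycles x a)
    (hb : HasCycles y b) (hc : HasCycles z c) (T : Finset Ω)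
    (hT : ∀ i, ∃ g ∈ Subgroup.closure {x, y}, g i ∈ T) : a + b + c ≤ Fintype.card Ω + 2 * T.card := by
  classical
  let A := LinearMap.range (LinearMap.id - permRep x)
  let B := LinearMap.range (LinearMap.id - permRep y)
  let C := LinearMap.range (LinearMap.id - permRep z)
  let α : (Ω → ℚ) →ₗ[ℚ] A × B × C := (LinearMap.id - permRep x).rangeRestrict.prod
    ((LinearMap.id - permRep y).rangeRestrict.prod (LinearMap.id - permRep z).rangeRestrict)
  let β : A × B × C →ₗ[ℚ] (Ω → ℚ) := A.subtype.coprod
    ((permRep x ∘ₗ B.subtype).coprod (permRep (x * y) ∘ₗ C.subtype))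
  have hβ : ∀ u : A × B × C, β u = u.1 + (permRep x u.2.1 + permRep (x * y) u.2.2) := fun u => rfl
  have h1 : LinearMap.range α ≤ LinearMap.ker β := by
    rintro _ ⟨f, rfl⟩
    rw [LinearMap.mem_ker, hβ]
    show (f - permRep x f) + (permRep x (f - permRep y f) + permRep (x * y) (f - permRep z f)) = 0
    rw [map_sub, map_sub, ← permRep_mul (x * y), hxyz, permRep_one, permRep_mul]
    abel
  have h2 : finrank ℚ (LinearMap.ker α) ≤ T.card := by
    have : finrank ℚ (LinearMap.ker α) ≤ finrank ℚ (T → ℚ) := by
      refine LinearMap.finrank_le_finrank_of_injective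
        (f := LinearMap.funLeft ℚ ℚ (Subtype.val : T → Ω) ∘ₗ (LinearMap.ker α).subtype) ?_
      rw [injective_iff_map_eq_zero]
      rintro ⟨f, hf⟩ e
      have hx : f - permRep x f = 0 := congrArg (fun u : A × B × C => (u.1 : Ω → ℚ)) hf
      have hy : f - permRep y f = 0 := congrArg (fun u : A × B × C => (u.2.1 : Ω → ℚ)) hf
      have key : ∀ g ∈ Subgroup.closure {x, y}, permRep g f = f := by
        intro g hg
        induction hg using Subgroup.closure_induction with
        | mem g hg =>
          rcases hg with rfl | rfl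
          · exact (sub_eq_zero.1 hx).symm
          · exact (sub_eq_zero.1 hy).symm
        | one => rfl
        | mul g h _ _ h1 h2 => rw [permRep_mul, h2, h1]
        | inv g _ h1 => conv_lhs => rw [← h1, ← permRep_mul, inv_mul_cancel, permRep_one]
      ext i
      obtain ⟨g, hg, hi⟩ := hT i
      have e1 : f (g i) = 0 := congrFun e ⟨g i, hi⟩
      have e2 := congrFun (key g hg) (g i)
      rw [permRep_apply, Equiv.symm_apply_apply] at e2
      exact e2.trans e1
    rwa [finrank_fintype_fun_eq_card, Fintype.card_coe] at this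
  have h3 : ∀ g ∈ Subgroup.closure {x, y}, ∀ f, f - permRep g f ∈ LinearMap.range β := by
    have hx : ∀ f, f - permRep x f ∈ LinearMap.range β := fun f =>
      ⟨(⟨f - permRep x f, f, rfl⟩, 0, 0), by rw [hβ]; simp⟩
    intro g hg
    induction hg using Subgroup.closure_induction with
    | mem g hg =>
      rcases hg with rfl | rfl
      · exact hx
      · intro f
        have h4 : permRep x (f - permRep g f) ∈ LinearMap.range β :=
          ⟨(0, ⟨f - permRep g f, f, rfl⟩, 0), by rw [hβ]; simp⟩
        have := Submodule.add_mem _ (hx (f - permRep g f)) h4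
        rwa [sub_add_cancel] at this
    | one => intro f; rw [permRep_one, sub_self]; exact Submodule.zero_mem _
    | mul g h _ _ h1 h2 =>
      intro f
      have := Submodule.add_mem _ (h2 f) (h1 (permRep h f))
      rwa [sub_add_sub_cancel, ← permRep_mul] at this
    | inv g _ h1 =>
      intro f
      have := Submodule.neg_mem _ (h1 (permRep g⁻¹ f))
      rwa [← permRep_mul, mul_inv_cancel, permRep_one, neg_sub] at this
  have h4 : Fintype.card Ω ≤ finrank ℚ (LinearMap.range β) + T.card := by
    let S : Submodule ℚ (Ω → ℚ) := Submodule.span ℚ (T.image fun i => (Pi.single i 1 : Ω → ℚ) : Finset _)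
    have hS : finrank ℚ S ≤ T.card := (finrank_span_finset_le_card _).trans Finset.card_image_le
    have htop : LinearMap.range β ⊔ S = ⊤ := by
      rw [eq_top_iff, ← (Pi.basisFun ℚ Ω).span_eq, Submodule.span_le]
      rintro _ ⟨i, rfl⟩
      obtain ⟨g, hg, hi⟩ := hT i
      have e : permRep g (Pi.single i 1 : Ω → ℚ) = Pi.single (g i) 1 := by
        ext j
        rw [permRep_apply, Pi.single_apply, Pi.single_apply]
        simp [Equiv.symm_apply_eq]
      have h5 := h3 g hg (Pi.single i 1)
      rw [e] at h5
      have h6 : (Pi.single (g i) 1 : Ω → ℚ) ∈ S :=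
        Submodule.subset_span (Finset.mem_coe.2 (Finset.mem_image_of_mem _ hi))
      have := Submodule.add_mem _ (Submodule.mem_sup_left (T := S) h5) (Submodule.mem_sup_right h6)
      rw [sub_add_cancel] at this
      simpa using this
    have h7 := Submodule.finrank_sup_add_finrank_inf_eq (LinearMap.range β) S
    rw [htop, finrank_top, finrank_fintype_fun_eq_card] at h7
    omega
  have h5 := LinearMap.finrank_range_add_finrank_ker α
  have h6 := LinearMap.finrank_range_add_finrank_ker β
  have h7 := Submodule.finrank_mono h1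
  rw [finrank_fintype_fun_eq_card] at h5
  rw [finrank_prod, finrank_prod] at h6
  have h8 : finrank ℚ A + a ≤ _ := ha.finrank_range
  have h9 : finrank ℚ B + b ≤ _ := hb.finrank_range
  have h10 : finrank ℚ C + c ≤ _ := hc.finrank_range
  omega

end Cfsg.Agent.H14
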